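import Mathlib
import Cfsg.Agent.Lib.SL2Mat

/-!
# S5719, `G₂(3)`: the centraliser of an involution as an abstract group (helper244, mathematics helper634)

`Cen3 C` : `C = (SL₂(3) ∘ SL₂(3)).2`.  `inv_one`, `inv_two`, `inv_three`, `inv_four`: lower bounds for the number of
involutions of the subgroups of index 1, 2, 3, 4.
-/

set_option autoImplicit false
set_option linter.unusedSectionVars false

namespace Cfsg.Agent.H244.IFG

open Cfsg.Agent.Lib.SL2Mat

abbrev SZ := Matrix.SpecialLinearGroup (Fin 2) (ZMod 3)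

/-- conjugation by `diag(-1, 1)` -/
def tw (x : SZ) : SZ := mk (ent x 0 0) (-ent x 0 1) (-ent x 1 0) (ent x 1 1) (by
  have h := x.2
  rw [Matrix.det_fin_two] at h
  change x.1 0 0 * x.1 1 1 - (-x.1 0 1) * (-x.1 1 0) = 1
  rw [neg_mul_neg]
  exact h)

def mI : SZ := mk (-1) 0 0 (-1) (by decide)

def pos (x : SZ) : Bool := ent x 0 0 == 1 || (ent x 0 0 == 0 && ent x 0 1 == 1)

theorem pos_neg : ∀ x : SZ, pos x = true → pos (mI * x) = true → False := by decide +kernel

theorem pos_neg' : ∀ x : SZ, pos x = true → pos (x * mI) = true → False := by decide +kernel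

def ok (t : SZ × SZ × Bool) : Bool :=
  pos t.1 && (bif t.2.2 then (t.1 * tw t.1 == 1 && t.2.1 * tw t.2.1 == 1)
    else ((t.1 == 1 && t.2.1 == mI) || (t.1 * t.1 == mI && t.2.1 * t.2.1 == mI)))

def I1 : Finset (SZ × SZ × Bool) := Finset.univ.filter fun t => ok t = true

theorem card_I1 : I1.card = 91 := by decide +kernel

theorem card_out : (I1.filter fun t => t.2.2 = true).card = 72 := by decide +kernel

theorem card_in : (I1.filter fun t => t.2.2 = false).card = 19 := by decide +kernel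

theorem mI_sq : mI * mI = 1 := by decide +kernel

theorem tw_up (t : ZMod 3) : tw (up t) = up (-t) := by
  refine ext_ent ?_ ?_ ?_ ?_ <;> simp [tw]

theorem tw_lo (t : ZMod 3) : tw (lo t) = lo (-t) := by
  refine ext_ent ?_ ?_ ?_ ?_ <;> simp [tw]

theorem up_sq (t : ZMod 3) : up t = up (-t) * up (-t) := by
  rw [up_mul]
  congr 1
  revert t
  decide

theorem lo_sq (t : ZMod 3) : lo t = lo (-t) * lo (-t) := by
  rw [lo_mul]
  congr 1
  revert t
  decide

/-- `(SL₂(3) ∘ SL₂(3)).2` -/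
structure Cen3 (C : Type*) [Group C] where
  p1 : SZ →* C
  p4 : SZ →* C
  δ : C
  comm : ∀ x y, p1 x * p4 y = p4 y * p1 x
  zz : p1 mI = p4 mI
  eqc : ∀ x y, p1 x = p4 y → (x = 1 ∧ y = 1) ∨ (x = mI ∧ y = mI)
  d2 : δ * δ = 1
  tw1 : ∀ x, δ * p1 x = p1 (tw x) * δ
  tw4 : ∀ y, δ * p4 y = p4 (tw y) * δ
  dn : ∀ x y, p1 x * p4 y ≠ δ
  all : ∀ g, (∃ x y, g = p1 x * p4 y) ∨ ∃ x y, g = p1 x * p4 y * δ

section fix

variable {C : Type*} [Group C] [Finite C]

/-- counting with fixed cosets -/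
theorem card_le_of_fix (D : Subgroup C) (P : C → Prop) (hP : ∀ s g, P s → P (g⁻¹ * s * g))
    (hfix : ∀ s, P s → ∃ c : C ⧸ D, s • c = c) :
    Nat.card {s // P s} ≤ D.index * Nat.card {s // s ∈ D ∧ P s} := by
  classical
  have h1 : ∀ s : {s // P s}, ∃ c : C ⧸ D, (c.out)⁻¹ * s * c.out ∈ D := by
    rintro ⟨s, hs⟩
    obtain ⟨c, hc⟩ := hfix s hs
    refine ⟨c, ?_⟩
    have h2 : ((s * c.out : C) : C ⧸ D) = ((c.out : C) : C ⧸ D) := by
      rw [QuotientGroup.out_eq']
      conv_rhs => rw [← hc]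
      rw [← QuotientGroup.out_eq' c]
      simp only [QuotientGroup.out_eq']
      conv_rhs => rw [← QuotientGroup.out_eq' c]
      rfl
    have h3 := QuotientGroup.eq.1 h2.symm
    rwa [← mul_assoc] at h3
  choose f hf using h1
  rw [Subgroup.index, ← Nat.card_prod]
  refine Nat.card_le_card_of_injective (fun s : {s // P s} =>
    ((f s, ⟨((f s).out)⁻¹ * s * (f s).out, hf s, hP _ _ s.2⟩) : (C ⧸ D) × {s // s ∈ D ∧ P s})) ?_
  intro s s' h
  have h4 : f s = f s' := congrArg Prod.fst h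
  have h5 : ((f s).out)⁻¹ * (s : C) * (f s).out = ((f s').out)⁻¹ * (s' : C) * (f s').out :=
    congrArg (fun p : (C ⧸ D) × {s // s ∈ D ∧ P s} => (p.2 : C)) h
  rw [h4] at h5
  apply Subtype.ext
  exact mul_left_cancel (mul_right_cancel h5)

end fix

namespace Cen3

variable {C : Type*} [Group C] (c : Cen3 C)

def E (t : SZ × SZ × Bool) : C := c.p1 t.1 * c.p4 t.2.1 * (bif t.2.2 then c.δ else 1)

theorem eq_of {x y x' y' : SZ} (hx : pos x = true) (hx' : pos x' = true) (h : c.p1 x * c.p4 y = c.p1 x' * c.p4 y') :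
    x = x' ∧ y = y' := by
  have h1 : c.p1 (x'⁻¹ * x) = c.p4 (y' * y⁻¹) := by
    rw [map_mul, map_mul, map_inv, map_inv]
    have h2 : c.p1 x = c.p1 x' * c.p4 y' * (c.p4 y)⁻¹ := by rw [← h, mul_inv_cancel_right]
    rw [h2]
    group
  rcases c.eqc _ _ h1 with ⟨h3, h4⟩ | ⟨h3, h4⟩
  · exact ⟨(inv_mul_eq_one.1 h3).symm, (mul_inv_eq_one.1 h4).symm⟩
  · exfalso
    have h5 : x = x' * mI := by rw [← h3]; group
    exact pos_neg' x' hx' (h5 ▸ hx)

theorem E_inj {t t' : SZ × SZ × Bool} (ht : pos t.1 = true) (ht' : pos t'.1 = true) (h : c.E t = c.E t') : t = t' := by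
  obtain ⟨x, y, b⟩ := t
  obtain ⟨x', y', b'⟩ := t'
  simp only [E] at h ht ht'
  cases b <;> cases b'
  · simp only [cond_false, mul_one] at h
    obtain ⟨rfl, rfl⟩ := c.eq_of ht ht' h
    rfl
  · exfalso
    simp only [cond_false, cond_true, mul_one] at h
    refine c.dn (x'⁻¹ * x) (y'⁻¹ * y) ?_
    have h2 : c.δ = (c.p1 x' * c.p4 y')⁻¹ * (c.p1 x * c.p4 y) := by rw [h]; group
    rw [h2, map_mul, map_mul, map_inv, map_inv, mul_inv_rev]
    have h3 := c.comm (x'⁻¹ * x) y'⁻¹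
    rw [map_mul, map_inv, map_inv] at h3
    calc (c.p1 x')⁻¹ * c.p1 x * ((c.p4 y')⁻¹ * c.p4 y) = ((c.p1 x')⁻¹ * c.p1 x * (c.p4 y')⁻¹) * c.p4 y := by group
      _ = ((c.p4 y')⁻¹ * ((c.p1 x')⁻¹ * c.p1 x)) * c.p4 y := by rw [h3]
      _ = _ := by group
  · exfalso
    simp only [cond_false, cond_true, mul_one] at h
    refine c.dn (x⁻¹ * x') (y⁻¹ * y') ?_
    have h2 : c.δ = (c.p1 x * c.p4 y)⁻¹ * (c.p1 x' * c.p4 y') := by rw [← h]; group
    rw [h2, map_mul, map_mul, map_inv, map_inv, mul_inv_rev]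
    have h3 := c.comm (x⁻¹ * x') y⁻¹
    rw [map_mul, map_inv, map_inv] at h3
    calc (c.p1 x)⁻¹ * c.p1 x' * ((c.p4 y)⁻¹ * c.p4 y') = ((c.p1 x)⁻¹ * c.p1 x' * (c.p4 y)⁻¹) * c.p4 y' := by group
      _ = ((c.p4 y)⁻¹ * ((c.p1 x)⁻¹ * c.p1 x')) * c.p4 y' := by rw [h3]
      _ = _ := by group
  · simp only [cond_true] at h
    obtain ⟨rfl, rfl⟩ := c.eq_of ht ht' (mul_right_cancel h)
    rfl

theorem p1_inj {x : SZ} (h : c.p1 x = 1) : x = 1 := by
  rcases c.eqc x 1 (by rw [h, map_one]) with ⟨h1, -⟩ | ⟨-, h1⟩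
  · exact h1
  · exfalso
    revert h1
    decide

theorem E_inv {t : SZ × SZ × Bool} (ht : ok t = true) : c.E t * c.E t = 1 ∧ c.E t ≠ 1 := by
  obtain ⟨x, y, b⟩ := t
  have hpos : pos x = true := by
    simp only [ok, Bool.and_eq_true] at ht
    exact ht.1
  have hne : c.E (x, y, b) ≠ 1 ∨ (x, y, b) = (1, 1, false) := by
    by_cases h1 : c.E (x, y, b) = 1
    · right
      apply c.E_inj hpos (t' := (1, 1, false)) (by decide)
      rw [h1]
      simp [E]
    · exact Or.inl h1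
  have hne' : c.E (x, y, b) ≠ 1 := by
    rcases hne with h | h
    · exact h
    · exfalso
      rw [h] at ht
      revert ht
      decide
  refine ⟨?_, hne'⟩
  cases b
  · simp only [ok, cond_false, Bool.and_eq_true, Bool.or_eq_true, beq_iff_eq] at ht
    simp only [E, cond_false, mul_one]
    have e : c.p1 x * c.p4 y * (c.p1 x * c.p4 y) = c.p1 (x * x) * c.p4 (y * y) := by
      rw [map_mul, map_mul, mul_assoc, ← mul_assoc (c.p4 y), ← c.comm, mul_assoc, mul_assoc]
    rw [e]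
    rcases ht.2 with ⟨h1, h2⟩ | ⟨h1, h2⟩
    · rw [h1, h2, mI_sq, mul_one, map_one, map_one, mul_one]
    · rw [h1, h2, c.zz, ← map_mul, mI_sq, map_one]
  · simp only [ok, cond_true, Bool.and_eq_true, beq_iff_eq] at ht
    simp only [E, cond_true]
    have e : c.p1 x * c.p4 y * c.δ * (c.p1 x * c.p4 y * c.δ) = c.p1 (x * tw x) * c.p4 (y * tw y) * (c.δ * c.δ) := by
      rw [map_mul, map_mul]
      calc c.p1 x * c.p4 y * c.δ * (c.p1 x * c.p4 y * c.δ) = c.p1 x * c.p4 y * (c.δ * c.p1 x) * c.p4 y * c.δ := by group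
        _ = c.p1 x * c.p4 y * c.p1 (tw x) * (c.δ * c.p4 y) * c.δ := by rw [c.tw1]; group
        _ = c.p1 x * (c.p4 y * c.p1 (tw x)) * c.p4 (tw y) * (c.δ * c.δ) := by rw [c.tw4]; group
        _ = _ := by rw [← c.comm]; group
    rw [e, ht.2.1, ht.2.2, c.d2]
    simp

section count

variable [Finite C]

/-- the number of involutions -/
noncomputable def inv (D : Subgroup C) : ℕ := Nat.card {s // s ∈ D ∧ (s * s = 1 ∧ s ≠ 1)}

theorem card_le_of_I (I : Finset (SZ × SZ × Bool)) (hI : ∀ t ∈ I, ok t = true) (P : C → Prop) (hP : ∀ t ∈ I, P (c.E t)) :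
    I.card ≤ Nat.card {s // P s} := by
  have h1 : I.card = Nat.card I := by simp
  rw [h1]
  refine Nat.card_le_card_of_injective (fun t : I => (⟨c.E t, hP t t.2⟩ : {s // P s})) ?_
  intro t t' h
  have hp : ∀ t : I, pos (t : SZ × SZ × Bool).1 = true := fun t => by
    have := hI t t.2
    simp only [ok, Bool.and_eq_true] at this
    exact this.1
  exact Subtype.ext (c.E_inj (hp t) (hp t') (congrArg Subtype.val h))

include c in
theorem inv_top : 91 ≤ Nat.card {s : C // s * s = 1 ∧ s ≠ 1} := by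
  rw [← card_I1]
  exact c.card_le_of_I I1 (fun t ht => (Finset.mem_filter.1 ht).2) _ fun t ht => c.E_inv (Finset.mem_filter.1 ht).2

include c in
theorem inv_one {D : Subgroup C} (hD : D.index = 1) : 91 ≤ Nat.card {s // s ∈ D ∧ (s * s = 1 ∧ s ≠ 1)} := by
  rw [Subgroup.index_eq_one] at hD
  subst hD
  have h := c.inv_top
  simpa using h

/-- subgroups containing the images of the root elements -/
theorem mem_of_gen {D : Subgroup C} (h1 : ∀ t, c.p1 (up t) ∈ D) (h2 : ∀ t, c.p1 (lo t) ∈ D) (x : SZ) : c.p1 x ∈ D := by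
  obtain ⟨a, b, d, e, rfl⟩ := exists_up_lo x
  simp only [map_mul]
  exact D.mul_mem (D.mul_mem (D.mul_mem (h1 _) (h2 _)) (h1 _)) (h2 _)

theorem mem_of_gen4 {D : Subgroup C} (h1 : ∀ t, c.p4 (up t) ∈ D) (h2 : ∀ t, c.p4 (lo t) ∈ D) (x : SZ) : c.p4 x ∈ D := by
  obtain ⟨a, b, d, e, rfl⟩ := exists_up_lo x
  simp only [map_mul]
  exact D.mul_mem (D.mul_mem (D.mul_mem (h1 _) (h2 _)) (h1 _)) (h2 _)

include c in
theorem inv_two {D : Subgroup C} (hD : D.index = 2) : 19 ≤ Nat.card {s // s ∈ D ∧ (s * s = 1 ∧ s ≠ 1)} := by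
  have hsq : ∀ a : C, a * a ∈ D := fun a => Subgroup.mul_self_mem_of_index_two hD a
  have h1 : ∀ x, c.p1 x ∈ D := c.mem_of_gen (fun t => by rw [up_sq, map_mul]; exact hsq _)
    (fun t => by rw [lo_sq, map_mul]; exact hsq _)
  have h4 : ∀ x, c.p4 x ∈ D := c.mem_of_gen4 (fun t => by rw [up_sq, map_mul]; exact hsq _)
    (fun t => by rw [lo_sq, map_mul]; exact hsq _)
  rw [← card_in]
  refine c.card_le_of_I _ (fun t ht => (Finset.mem_filter.1 (Finset.mem_filter.1 ht).1).2) _ fun t ht => ?_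
  have h5 := Finset.mem_filter.1 ht
  refine ⟨?_, c.E_inv (Finset.mem_filter.1 h5.1).2⟩
  rw [E, h5.2, cond_false, mul_one]
  exact D.mul_mem (h1 _) (h4 _)

/-! ### indices 3 and 4 -/

theorem perm_three : ∀ σ : Equiv.Perm (Fin 3), σ * σ = 1 → ∃ i, σ i = i := by decide

theorem perm_four : ∀ σ : Equiv.Perm (Fin 4), σ * σ = 1 → Equiv.Perm.sign σ = -1 → ∃ i, σ i = i := by decide

theorem perm_four' : ∀ a h : Equiv.Perm (Fin 4), Equiv.Perm.sign h = 1 → Equiv.Perm.sign a = 1 → a * a * a = 1 →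
    h * a = a⁻¹ * h → a = 1 := by decide +kernel

/-- the action on the cosets, on `Fin n` -/
theorem exists_act (D : Subgroup C) {n : ℕ} (hD : D.index = n) :
    ∃ (φ : C →* Equiv.Perm (Fin n)) (e : (C ⧸ D) ≃ Fin n), ∀ s q, e (s • q) = φ s (e q) := by
  have h0 : Nat.card (C ⧸ D) = n := hD
  let e : (C ⧸ D) ≃ Fin n := (Finite.equivFin (C ⧸ D)).trans (finCongr h0)
  refine ⟨(e.permCongrHom : Equiv.Perm (C ⧸ D) →* Equiv.Perm (Fin n)).comp (MulAction.toPermHom C (C ⧸ D)), e, ?_⟩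
  intro s q
  simp [Equiv.permCongrHom, Equiv.permCongr_apply]

include c in
theorem inv_three {D : Subgroup C} (hD : D.index = 3) : 31 ≤ Nat.card {s // s ∈ D ∧ (s * s = 1 ∧ s ≠ 1)} := by
  obtain ⟨φ, e, he⟩ := exists_act D hD
  have h1 := card_le_of_fix D (fun s => s * s = 1 ∧ s ≠ 1) (fun s g ⟨h2, h3⟩ => by
    refine ⟨?_, fun h4 => h3 ?_⟩
    · calc g⁻¹ * s * g * (g⁻¹ * s * g) = g⁻¹ * (s * s) * g := by group
        _ = 1 := by rw [h2]; group
    · calc s = g * (g⁻¹ * s * g) * g⁻¹ := by group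
        _ = 1 := by rw [h4]; group) (fun s ⟨h2, _⟩ => by
    obtain ⟨i, hi⟩ := perm_three (φ s) (by rw [← map_mul, h2, map_one])
    refine ⟨e.symm i, e.injective ?_⟩
    rw [he, Equiv.apply_symm_apply, hi])
  rw [hD] at h1
  have h2 := c.inv_top
  have h3 := h2.trans h1
  omega

theorem cube_one {t : ZMod 3} : up t * up t * up t = (1 : SZ) := by
  rw [up_mul, up_mul, ← up_zero]
  congr 1
  revert t
  decide

theorem cube_one' {t : ZMod 3} : lo t * lo t * lo t = (1 : SZ) := by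
  rw [lo_mul, lo_mul, ← lo_zero]
  congr 1
  revert t
  decide

theorem sign_cube {u : ℤˣ} (h : u * u * u = 1) : u = 1 := by
  rcases Int.units_eq_one_or u with rfl | rfl
  · rfl
  · exfalso
    revert h
    decide

include c in
theorem inv_four {D : Subgroup C} (hD : D.index = 4) : 8 ≤ Nat.card {s // s ∈ D ∧ (s * s = 1 ∧ s ≠ 1)} := by
  obtain ⟨φ, e, he⟩ := exists_act D hD
  have hs1 : ∀ t, Equiv.Perm.sign (φ (c.p1 (up t))) = 1 := fun t => sign_cube (by
    rw [← map_mul, ← map_mul, ← map_mul, ← map_mul, ← map_mul, ← map_mul, cube_one, map_one, map_one, map_one])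
  have hs2 : ∀ t, Equiv.Perm.sign (φ (c.p1 (lo t))) = 1 := fun t => sign_cube (by
    rw [← map_mul, ← map_mul, ← map_mul, ← map_mul, ← map_mul, ← map_mul, cube_one', map_one, map_one, map_one])
  have hs3 : ∀ t, Equiv.Perm.sign (φ (c.p4 (up t))) = 1 := fun t => sign_cube (by
    rw [← map_mul, ← map_mul, ← map_mul, ← map_mul, ← map_mul, ← map_mul, cube_one, map_one, map_one, map_one])
  have hs4 : ∀ t, Equiv.Perm.sign (φ (c.p4 (lo t))) = 1 := fun t => sign_cube (by
    rw [← map_mul, ← map_mul, ← map_mul, ← map_mul, ← map_mul, ← map_mul, cube_one', map_one, map_one, map_one])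
  let K : Subgroup C := (Equiv.Perm.sign.comp φ).ker
  have hK1 : ∀ x, Equiv.Perm.sign (φ (c.p1 x)) = 1 := c.mem_of_gen (D := K) hs1 hs2
  have hK4 : ∀ x, Equiv.Perm.sign (φ (c.p4 x)) = 1 := c.mem_of_gen4 (D := K) hs3 hs4
  rcases Int.units_eq_one_or (Equiv.Perm.sign (φ c.δ)) with hd | hd
  · exfalso
    -- the image lies in the alternating group
    have key : ∀ a : C, Equiv.Perm.sign (φ a) = 1 → a * a * a = 1 → c.δ * a = a⁻¹ * c.δ → φ a = 1 := fun a h1 h2 h3 =>
      perm_four' (φ a) (φ c.δ) hd h1 (by rw [← map_mul, ← map_mul, h2, map_one])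
        (by rw [← map_mul, h3, map_mul, map_inv])
    have hk1 : ∀ t, φ (c.p1 (up t)) = 1 := fun t => key _ (hs1 t) (by rw [← map_mul, ← map_mul, cube_one, map_one])
      (by rw [c.tw1, tw_up, ← up_inv, map_inv])
    have hk2 : ∀ t, φ (c.p1 (lo t)) = 1 := fun t => key _ (hs2 t) (by rw [← map_mul, ← map_mul, cube_one', map_one])
      (by rw [c.tw1, tw_lo, ← lo_inv, map_inv])
    have hk3 : ∀ t, φ (c.p4 (up t)) = 1 := fun t => key _ (hs3 t) (by rw [← map_mul, ← map_mul, cube_one, map_one])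
      (by rw [c.tw4, tw_up, ← up_inv, map_inv])
    have hk4 : ∀ t, φ (c.p4 (lo t)) = 1 := fun t => key _ (hs4 t) (by rw [← map_mul, ← map_mul, cube_one', map_one])
      (by rw [c.tw4, tw_lo, ← lo_inv, map_inv])
    have hφ1 : ∀ x, c.p1 x ∈ φ.ker := c.mem_of_gen (D := φ.ker) hk1 hk2
    have hφ4 : ∀ x, c.p4 x ∈ φ.ker := c.mem_of_gen4 (D := φ.ker) hk3 hk4
    have hker : φ.ker ≤ D := by
      intro a ha
      have h1 := he a (((1 : C) : C ⧸ D))
      rw [MonoidHom.mem_ker.1 ha, Equiv.Perm.one_apply] at h1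
      have h2 : ((a * 1 : C) : C ⧸ D) = ((1 : C) : C ⧸ D) := e.injective h1
      rw [mul_one] at h2
      have h3 := QuotientGroup.eq.1 h2.symm
      rwa [_root_.inv_one, one_mul] at h3
    have hidx : D.index ≤ 2 := by
      have h1 : ∀ g : C, g ∈ D ∨ g * c.δ⁻¹ ∈ D := by
        intro g
        rcases c.all g with ⟨x, y, rfl⟩ | ⟨x, y, rfl⟩
        · exact Or.inl (hker (mul_mem (hφ1 x) (hφ4 y)))
        · right
          rw [mul_inv_cancel_right]
          exact hker (mul_mem (hφ1 x) (hφ4 y))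
      rw [Subgroup.index]
      have h2 : Function.Surjective (fun b : Bool => (((bif b then c.δ⁻¹ else 1 : C)) : C ⧸ D)) := by
        intro q
        induction q using QuotientGroup.induction_on with
        | H g =>
          rcases h1 g⁻¹ with h | h
          · refine ⟨false, QuotientGroup.eq.2 ?_⟩
            rw [cond_false, _root_.inv_one, one_mul]
            exact inv_mem_iff.1 h
          · refine ⟨true, QuotientGroup.eq.2 ?_⟩
            rw [cond_true, inv_inv]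
            have h3 := D.inv_mem h
            rw [mul_inv_rev, inv_inv, inv_inv] at h3
            exact h3
      have h3 := Nat.card_le_card_of_surjective _ h2
      simpa using h3
    omega
  · -- outer involutions are transpositions
    let P : C → Prop := fun s => (s * s = 1 ∧ s ≠ 1) ∧ Equiv.Perm.sign (φ s) = -1
    have h1 := card_le_of_fix D P (fun s g ⟨⟨h2, h3⟩, h4⟩ => by
      refine ⟨⟨?_, fun h4 => h3 ?_⟩, ?_⟩
      · calc g⁻¹ * s * g * (g⁻¹ * s * g) = g⁻¹ * (s * s) * g := by group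
          _ = 1 := by rw [h2]; group
      · calc s = g * (g⁻¹ * s * g) * g⁻¹ := by group
          _ = 1 := by rw [h4]; group
      · rw [map_mul, map_mul, map_mul, map_mul, h4, map_inv, map_inv, mul_comm, ← mul_assoc, mul_inv_cancel, one_mul])
      (fun s ⟨⟨h2, _⟩, h3⟩ => by
      obtain ⟨i, hi⟩ := perm_four (φ s) (by rw [← map_mul, h2, map_one]) h3
      refine ⟨e.symm i, e.injective ?_⟩
      rw [he, Equiv.apply_symm_apply, hi])
    rw [hD] at h1
    have h2 : 72 ≤ Nat.card {s // P s} := by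
      rw [← card_out]
      refine c.card_le_of_I _ (fun t ht => (Finset.mem_filter.1 (Finset.mem_filter.1 ht).1).2) _ fun t ht => ?_
      have h5 := Finset.mem_filter.1 ht
      refine ⟨c.E_inv (Finset.mem_filter.1 h5.1).2, ?_⟩
      rw [E, h5.2, cond_true, map_mul, map_mul, map_mul, map_mul, hK1, hK4, hd, one_mul, one_mul]
    have h3 : Nat.card {s // s ∈ D ∧ P s} ≤ Nat.card {s // s ∈ D ∧ (s * s = 1 ∧ s ≠ 1)} :=
      Nat.card_le_card_of_injective (fun s => (⟨s.1, s.2.1, s.2.2.1⟩ : {s // s ∈ D ∧ (s * s = 1 ∧ s ≠ 1)}))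
        fun s s' h => Subtype.ext (congrArg (fun u : {s // s ∈ D ∧ (s * s = 1 ∧ s ≠ 1)} => (u : C)) h)
    omega

theorem pos_or : ∀ x : SZ, pos x = true ∨ pos (x * mI) = true := by decide +kernel

theorem card_pos : Fintype.card {t : SZ × SZ × Bool // pos t.1 = true} = 576 := by decide +kernel

include c in
/-- **the order** -/
theorem card_eq : Nat.card C = 576 := by
  rw [← card_pos, ← Nat.card_eq_fintype_card]
  refine (Nat.card_congr (Equiv.ofBijective (fun t : {t : SZ × SZ × Bool // pos t.1 = true} => c.E t) ⟨?_, ?_⟩)).symm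
  · intro t t' h
    exact Subtype.ext (c.E_inj t.2 t'.2 h)
  · intro g
    have h1 : ∀ x y, c.p1 (x * mI) * c.p4 (y * mI) = c.p1 x * c.p4 y := fun x y => by
      rw [map_mul, map_mul, c.zz]
      have h2 := c.comm mI y
      rw [c.zz] at h2
      calc c.p1 x * c.p4 mI * (c.p4 y * c.p4 mI) = c.p1 x * (c.p4 mI * c.p4 y) * c.p4 mI := by group
        _ = c.p1 x * c.p4 y * (c.p4 mI * c.p4 mI) := by rw [h2]; group
        _ = _ := by rw [← map_mul c.p4 mI, mI_sq, map_one, mul_one]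
    rcases c.all g with ⟨x, y, rfl⟩ | ⟨x, y, rfl⟩
    · rcases pos_or x with h | h
      · exact ⟨⟨(x, y, false), h⟩, by simp [E]⟩
      · exact ⟨⟨(x * mI, y * mI, false), h⟩, by simp only [E, cond_false, mul_one]; exact h1 x y⟩
    · rcases pos_or x with h | h
      · exact ⟨⟨(x, y, true), h⟩, by simp [E]⟩
      · exact ⟨⟨(x * mI, y * mI, true), h⟩, by simp only [E, cond_true]; rw [h1 x y]⟩

/-- transport -/
def map {C' : Type*} [Group C'] (e : C ≃* C') : Cen3 C' where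
  p1 := e.toMonoidHom.comp c.p1
  p4 := e.toMonoidHom.comp c.p4
  δ := e c.δ
  comm x y := by
    change e (c.p1 x) * e (c.p4 y) = e (c.p4 y) * e (c.p1 x)
    rw [← map_mul, ← map_mul, c.comm]
  zz := congrArg e c.zz
  eqc x y h := c.eqc x y (e.injective h)
  d2 := by rw [← map_mul, c.d2, map_one]
  tw1 x := by
    change e c.δ * e (c.p1 x) = e (c.p1 (tw x)) * e c.δ
    rw [← map_mul, ← map_mul, c.tw1]
  tw4 x := by
    change e c.δ * e (c.p4 x) = e (c.p4 (tw x)) * e c.δ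
    rw [← map_mul, ← map_mul, c.tw4]
  dn x y h := c.dn x y (e.injective (by
    rw [← h, map_mul]
    rfl))
  all g := by
    rcases c.all (e.symm g) with ⟨x, y, h⟩ | ⟨x, y, h⟩
    · refine Or.inl ⟨x, y, ?_⟩
      change g = e (c.p1 x) * e (c.p4 y)
      rw [← map_mul, ← h, e.apply_symm_apply]
    · refine Or.inr ⟨x, y, ?_⟩
      change g = e (c.p1 x) * e (c.p4 y) * e c.δ
      rw [← map_mul, ← map_mul, ← h, e.apply_symm_apply]

end count

end Cen3

end Cfsg.Agent.H244.IFG
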