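import Cfsg.Agent.H244.IFG.Inst
import Cfsg.Agent.H999.IF.EngB
import Cfsg.Agent.H209.IF.Kill
import Cfsg.Agent.S1059
import Cfsg.Agent.ChevalleyStructure.FieldIso
import Cfsg.Agent.Cit.HexG2

/-!
# S5719: `KillE` for `G₂(3)` (helper244; mathematics helper634)
-/

set_option autoImplicit false

namespace Cfsg.Agent.H244.IFG

open Subgroup Cfsg.Agent.Lib.SL2Mat Cfsg.Agent.Cit.HexBase Cfsg.Agent.H209.Fxy Cfsg.Agent.H999.IFB

/-- all point stabilisers of the same order -/
theorem dvd_of_const {G X : Type*} [Group G] [Finite G] [Finite X] [MulAction G X] {k : ℕ}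
    (h : ∀ x : X, Nat.card (MulAction.stabilizer G x) = k) : Nat.card G ∣ k * Nat.card X := by
  classical
  have e := MulAction.selfEquivSigmaOrbitsQuotientStabilizer G X
  have := Fintype.ofFinite (MulAction.orbitRel.Quotient G X)
  rw [Nat.card_congr e, Nat.card_sigma, Finset.mul_sum]
  have h1 : ∀ ω ∈ (Finset.univ : Finset (MulAction.orbitRel.Quotient G X)),
      k * Nat.card (G ⧸ MulAction.stabilizer G ω.out) = Nat.card G := fun ω _ => by
    rw [← h ω.out]
    exact Subgroup.card_mul_index _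
  rw [Finset.sum_congr rfl h1, Finset.sum_const, smul_eq_mul]
  exact Dvd.intro_left _ rfl

/-- the involutions -/
def Inv {L : Type*} [Group L] (s : L) : Prop := s * s = 1 ∧ s ≠ 1

theorem inv_iff {L : Type*} [Group L] {s : L} : Inv s ↔ orderOf s = 2 := by
  constructor
  · rintro ⟨h1, h2⟩
    have : Fact (Nat.Prime 2) := ⟨Nat.prime_two⟩
    exact orderOf_eq_prime (by rw [pow_two, h1]) h2
  · intro h
    refine ⟨by rw [← pow_two, ← h, pow_orderOf_eq_one], ?_⟩
    rintro rfl
    rw [orderOf_one] at h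
    omega

/-- a subgroup acts on its involutions; all centralisers of order `k` -/
theorem dvd_inv {G : Type*} [Group G] [Finite G] {k : ℕ}
    (h : ∀ s : G, Inv s → Nat.card (centralizer ({s} : Set G)) = k) : Nat.card G ∣ k * Nat.card {s : G // Inv s} := by
  let _ : MulAction G {s : G // Inv s} :=
    { smul := fun g s => ⟨g * s * g⁻¹, by
        obtain ⟨s, h1, h2⟩ := s
        refine ⟨?_, fun h3 => h2 ?_⟩
        · calc g * s * g⁻¹ * (g * s * g⁻¹) = g * (s * s) * g⁻¹ := by group
            _ = 1 := by rw [h1]; group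
        · calc s = g⁻¹ * (g * s * g⁻¹) * g := by group
            _ = 1 := by rw [h3]; group⟩
      one_smul := fun s => Subtype.ext (by
        change 1 * (s : G) * 1⁻¹ = s
        group)
      mul_smul := fun g g' s => Subtype.ext (by
        change g * g' * (s : G) * (g * g')⁻¹ = g * (g' * s * g'⁻¹) * g⁻¹
        group) }
  refine dvd_of_const fun s => ?_
  rw [← h s s.2]
  refine Nat.card_congr (Equiv.subtypeEquivRight fun g => ?_)
  rw [MulAction.mem_stabilizer_iff, mem_centralizer_singleton_iff]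
  constructor
  · intro h1
    have h2 : g * (s : G) * g⁻¹ = s := congrArg Subtype.val h1
    exact mul_inv_eq_iff_eq_mul.1 h2
  · intro h1
    exact Subtype.ext (mul_inv_eq_iff_eq_mul.2 h1)

section main

variable {L : Type*} [Group L] [Finite L] [IsSimpleGroup L] (c : HexGrp (RingEquiv.refl (ZMod 3)) L)

include c in
/-- the centralisers of the involutions -/
theorem exists_cen {t : L} (ht : Inv t) : Nonempty (Cen3 ↥(centralizer ({t} : Set L))) := by
  obtain ⟨g, hg⟩ := isConj_iff.1 (c.isConj_invol two_ne c.z_sq (c.z_ne two_ne) ht.1 ht.2)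
  have h1 : centralizer ({t} : Set L) = (centralizer ({c.z} : Set L)).map (MulAut.conj g).toMonoidHom := by
    ext x
    rw [mem_centralizer_singleton_iff, Subgroup.mem_map]
    constructor
    · intro hx
      refine ⟨g⁻¹ * x * g, mem_centralizer_singleton_iff.2 ?_, ?_⟩
      · have h2 : c.z = g⁻¹ * t * g := by rw [← hg]; group
        rw [h2]
        calc g⁻¹ * x * g * (g⁻¹ * t * g) = g⁻¹ * (x * t) * g := by group
          _ = g⁻¹ * (t * x) * g := by rw [hx]
          _ = _ := by group
      · change g * (g⁻¹ * x * g) * g⁻¹ = x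
        group
    · rintro ⟨y, hy, rfl⟩
      have hy' := mem_centralizer_singleton_iff.1 hy
      change g * y * g⁻¹ * t = t * (g * y * g⁻¹)
      rw [← hg]
      calc g * y * g⁻¹ * (g * c.z * g⁻¹) = g * (y * c.z) * g⁻¹ := by group
        _ = g * (c.z * y) * g⁻¹ := by rw [hy']
        _ = _ := by group
  let e : ↥(centralizer ({c.z} : Set L)) ≃* ↥(centralizer ({t} : Set L)) :=
    ((MulAut.conj g).subgroupMap _).trans (MulEquiv.subgroupCongr h1.symm)
  exact ⟨(cen3 c).map e⟩

include c in
theorem card_cen {t : L} (ht : Inv t) : Nat.card (centralizer ({t} : Set L)) = 576 := by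
  obtain ⟨d⟩ := exists_cen c ht
  exact d.card_eq

variable {A : Subgroup L} {Γ : Subgroup (MulAut L)}

include c in
/-- the number of involutions of `A` in terms of the index of the centraliser -/
theorem bound {t : L} (ht : Inv t) (A : Subgroup L) :
    (A.relIndex (centralizer ({t} : Set L)) = 1 → 91 ≤ Nat.card {s // s ∈ A ∧ Inv s}) ∧
    (A.relIndex (centralizer ({t} : Set L)) = 2 → 19 ≤ Nat.card {s // s ∈ A ∧ Inv s}) ∧
    (A.relIndex (centralizer ({t} : Set L)) = 3 → 31 ≤ Nat.card {s // s ∈ A ∧ Inv s}) ∧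
    (A.relIndex (centralizer ({t} : Set L)) = 4 → 8 ≤ Nat.card {s // s ∈ A ∧ Inv s}) := by
  obtain ⟨d⟩ := exists_cen c ht
  have key : Nat.card {s : ↥(centralizer ({t} : Set L)) // s ∈ A.subgroupOf (centralizer ({t} : Set L)) ∧
      (s * s = 1 ∧ s ≠ 1)} ≤ Nat.card {s // s ∈ A ∧ Inv s} := by
    refine Nat.card_le_card_of_injective (fun s => (⟨(s.1 : L), mem_subgroupOf.1 s.2.1, congrArg Subtype.val s.2.2.1,
      fun h => s.2.2.2 (Subtype.ext h)⟩ : {s // s ∈ A ∧ Inv s})) fun s s' h => ?_
    exact Subtype.ext (Subtype.ext (congrArg (fun u : {s // s ∈ A ∧ Inv s} => (u : L)) h))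
  exact ⟨fun h => (d.inv_one h).trans key, fun h => (d.inv_two h).trans key, fun h => (d.inv_three h).trans key,
    fun h => (d.inv_four h).trans key⟩

theorem not_comm (hL : Nat.card L = 4245696) : ∃ a b : L, a * b ≠ b * a := by
  by_contra hcon
  push Not at hcon
  let _ : CommGroup L := { (inferInstance : Group L) with mul_comm := hcon }
  have hp : (Nat.card L).Prime := IsSimpleGroup.prime_card
  rw [hL] at hp
  revert hp
  norm_num

include c in
/-- the fixed point formula -/
theorem formula (hL : Nat.card L = 4245696) (h : IF A Γ) {t : L} (ht : Inv t) (htA : t ∈ A) :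
    fx A (MulAut.conj t) * 7371 = A.index * Nat.card {s // s ∈ A ∧ Inv s} := by
  have hna := not_comm hL
  have hσ : MulAut.conj t ∈ Γ := (h.conj t).2 htA
  obtain ⟨h1, h2⟩ := Cfsg.Agent.H999.IFB.IF.fix_formula hna h hσ
  have h3 : Nat.card {x : L // MulAut.conj t x = x} = 576 := by
    rw [← card_cen c ht]
    refine Nat.card_congr (Equiv.subtypeEquivRight fun x => ?_)
    rw [mem_centralizer_singleton_iff, MulAut.conj_apply, mul_inv_eq_iff_eq_mul, eq_comm]
  rw [h3, hL] at h2
  have h4 : (icl (MulAut.conj t)).ncard = 7371 := by omega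
  rw [h4] at h1
  rw [h1]
  congr 1
  have hinj : Function.Injective (MulAut.conj : L →* MulAut L) := by
    rw [injective_iff_map_eq_one]
    intro z hz
    apply center_of hna
    intro x
    have h5 := congrArg (fun τ : MulAut L => τ x) hz
    simp only [MulAut.conj_apply, MulAut.one_apply] at h5
    rwa [mul_inv_eq_iff_eq_mul] at h5
  have h5 : icl (MulAut.conj t) ∩ (Γ : Set (MulAut L)) = (MulAut.conj : L →* MulAut L) '' {s | s ∈ A ∧ Inv s} := by
    ext τ
    constructor
    · rintro ⟨⟨x, rfl⟩, hτ⟩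
      have h6 : MulAut.conj x * MulAut.conj t * (MulAut.conj x)⁻¹ = MulAut.conj (x * t * x⁻¹) := by
        rw [map_mul, map_mul, map_inv]
      rw [h6] at hτ ⊢
      refine ⟨x * t * x⁻¹, ⟨(h.conj _).1 hτ, ?_, fun h7 => ht.2 ?_⟩, rfl⟩
      · calc x * t * x⁻¹ * (x * t * x⁻¹) = x * (t * t) * x⁻¹ := by group
          _ = 1 := by rw [ht.1]; group
      · calc t = x⁻¹ * (x * t * x⁻¹) * x := by group
          _ = 1 := by rw [h7]; group
    · rintro ⟨s, ⟨hsA, hs⟩, rfl⟩
      obtain ⟨g, hg⟩ := isConj_iff.1 (c.isConj_invol two_ne ht.1 ht.2 hs.1 hs.2)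
      refine ⟨⟨g, ?_⟩, (h.conj s).2 hsA⟩
      rw [← hg, map_mul, map_mul, map_inv]
  rw [h5, Set.ncard_image_of_injective _ hinj]
  rfl

include c in
/-- **`G₂(3)`** -/
theorem killE_hex (hL : Nat.card L = 4245696) : KillE L := by
  rintro A Γ h ⟨t, htA, ht2⟩
  have hna := not_comm hL
  have ht : Inv t := inv_iff.2 ht2
  have hbig := h.big
  have hF : ∀ {s : L}, s ∈ A → Inv s → fx A (MulAut.conj s) = fx A (MulAut.conj t) := fun hsA hs => by
    have h1 := formula c hL h hs hsA
    have h2 := formula c hL h ht htA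
    rw [← h2] at h1
    omega
  obtain ⟨f, hf⟩ : ∃ f, f = fx A (MulAut.conj t) := ⟨_, rfl⟩
  have hform : f * 7371 = A.index * Nat.card {s // s ∈ A ∧ Inv s} := by
    rw [hf]
    exact formula c hL h ht htA
  have hE1 : ∀ {s : L}, s ∈ A → Inv s → A.relIndex (centralizer ({s} : Set L)) ≤ f ∧ f ^ 6 < A.index := fun {s} hsA hs => by
    have hσ : MulAut.conj s ∈ Γ := (h.conj s).2 hsA
    have ho : orderOf (MulAut.conj s) = 2 := by rw [orderOf_conj hna, inv_iff.1 hs]
    have h1 := (Cfsg.Agent.H999.IFB.IF.E1 h hσ ho (B := centralizer {s}) (fun b hb => by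
      have := mem_centralizer_singleton_iff.1 hb
      rw [MulAut.conj_apply, mul_inv_eq_iff_eq_mul]
      exact this.symm)).1
    have h2 := h.small _ hσ ho
    rw [hF hsA hs, ← hf] at h1 h2
    exact ⟨h1, h2⟩
  have hm0 : ∀ s : L, A.relIndex (centralizer ({s} : Set L)) ≠ 0 := fun s => Subgroup.index_ne_zero_of_finite
  have hdvd : A.index ∣ 4245696 := hL ▸ A.index_dvd_card
  have hcard := A.card_mul_index
  rw [hL] at hcard
  obtain ⟨h1, h6⟩ := hE1 htA ht
  have hb := bound c ht A
  have hm := hm0 t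
  obtain ⟨i, hi⟩ : ∃ i, i = Nat.card {s // s ∈ A ∧ Inv s} := ⟨_, rfl⟩
  rw [← hi] at hform hb
  generalize A.relIndex (centralizer ({t} : Set L)) = m at h1 hb hm
  have hf5 : f ≤ 5 := by
    by_contra hcon
    have h2 : 6 ≤ f := by omega
    have hi0 : i ≠ 0 := by
      rintro rfl
      omega
    have h3 : A.index ≤ f * 7371 := by
      rw [hform]
      exact Nat.le_mul_of_pos_right _ (Nat.pos_of_ne_zero hi0)
    have h4 : 6 ^ 5 ≤ f ^ 5 := Nat.pow_le_pow_left h2 5
    have h5 : f ^ 6 = f * f ^ 5 := by ring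
    have h7 : f * 7371 < f * f ^ 5 := Nat.mul_lt_mul_of_pos_left (by omega) (by omega)
    omega
  generalize hn : A.index = n at *
  have hi0 : i ≠ 0 := by
    rintro rfl
    have : f = 0 := by omega
    omega
  interval_cases f
  · omega
  · -- f = 1
    have : m = 1 := by omega
    have h2 := hb.1 this
    nlinarith
  · -- f = 2
    have h2 : 19 ≤ i := by
      have : m = 1 ∨ m = 2 := by omega
      rcases this with h | h
      · have := hb.1 h; omega
      · exact hb.2.1 h
    have h3 : i ≤ 20 := by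
      by_contra hcon
      nlinarith
    interval_cases i <;> omega
  · -- f = 3
    have hi30 : i ≤ 30 := by
      by_contra hcon
      nlinarith
    have hall : ∀ s : A, Inv s → Nat.card (centralizer ({s} : Set A)) = 288 := by
      intro s hs
      have hs' : Inv (s : L) := ⟨congrArg Subtype.val hs.1, fun h => hs.2 (Subtype.ext h)⟩
      obtain ⟨h2, -⟩ := hE1 s.2 hs'
      have h3 := bound c hs' A
      rw [← hi] at h3
      have h4 := hm0 (s : L)
      have h5 : A.relIndex (centralizer ({(s : L)} : Set L)) = 2 := by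
        generalize A.relIndex (centralizer ({(s : L)} : Set L)) = m' at h2 h3 h4
        have : m' = 1 ∨ m' = 2 ∨ m' = 3 := by omega
        rcases this with h | h | h
        · have := h3.1 h; omega
        · exact h
        · have := h3.2.2.1 h; omega
      have h7 := (A.subgroupOf (centralizer ({(s : L)} : Set L))).card_mul_index
      rw [show (A.subgroupOf (centralizer ({(s : L)} : Set L))).index = 2 from h5, card_cen c hs'] at h7
      have h8 : Nat.card (centralizer ({s} : Set A)) = Nat.card (A.subgroupOf (centralizer ({(s : L)} : Set L))) := by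
        refine Nat.card_congr ⟨fun x => ⟨⟨((x : A) : L), mem_centralizer_singleton_iff.2 ?_⟩, mem_subgroupOf.2 x.1.2⟩,
          fun x => ⟨⟨((x : centralizer ({(s : L)} : Set L)) : L), mem_subgroupOf.1 x.2⟩,
            mem_centralizer_singleton_iff.2 ?_⟩, fun x => rfl, fun x => rfl⟩
        · exact congrArg Subtype.val (mem_centralizer_singleton_iff.1 x.2)
        · exact Subtype.ext (mem_centralizer_singleton_iff.1 x.1.2)
      omega
    have h2 := dvd_inv hall
    have h3 : Nat.card {s : A // Inv s} = i := by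
      rw [hi]
      refine Nat.card_congr ⟨fun s => ⟨(s : A), s.1.2, congrArg Subtype.val s.2.1, fun h => s.2.2 (Subtype.ext h)⟩,
        fun s => ⟨⟨s.1, s.2.1⟩, Subtype.ext s.2.2.1, fun h => s.2.2.2 (congrArg Subtype.val h)⟩, fun s => rfl,
        fun s => rfl⟩
    rw [h3] at h2
    have h4 : Nat.card A = 192 * i := by
      have h5 : Nat.card A * (n * i) = 4245696 * i := by rw [← mul_assoc, hcard]
      rw [← hform] at h5
      omega
    rw [h4] at h2
    have h5 : 192 ∣ 288 := Nat.dvd_of_mul_dvd_mul_right (Nat.pos_of_ne_zero hi0) h2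
    revert h5
    norm_num
  · -- f = 4
    have h2 : 8 ≤ i := by
      have : m = 1 ∨ m = 2 ∨ m = 3 ∨ m = 4 := by omega
      rcases this with h | h | h | h
      · have := hb.1 h; omega
      · have := hb.2.1 h; omega
      · have := hb.2.2.1 h; omega
      · exact hb.2.2.2 h
    nlinarith
  · -- f = 5
    have h3 : i ≤ 2 := by
      by_contra hcon
      nlinarith
    have h4 : i = 1 ∨ i = 2 := by omega
    rcases h4 with rfl | rfl
    · have h5 : n = 36855 := by omega
      subst h5
      revert hdvd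
      norm_num
    · omega

end main

/-- **`KillE` for `G₂(3)`.** -/
theorem killE_g2_three (F : Type) [Field F] [Fintype F] (hF : Fintype.card F = 3)
    (hs : IsSimpleGroup (Cfsg.Lie.chevG2.group F)) : KillE (Cfsg.Lie.chevG2.group F) := by
  have h3 : Fintype.card (ZMod 3) = Fintype.card F := by rw [hF]; rfl
  let φ : ZMod 3 ≃+* F := FiniteField.ringEquivOfCardEq h3
  let e : ↥(Cfsg.Lie.chevG2.group (ZMod 3)) ≃* ↥(Cfsg.Lie.chevG2.group F) :=
    Cfsg.Agent.ChevalleyStructure.FieldIso.groupEquiv Cfsg.Lie.chevG2 φ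
  have hs' : IsSimpleGroup ↥(Cfsg.Lie.chevG2.group (ZMod 3)) := e.isSimpleGroup
  have hc : Nat.card ↥(Cfsg.Lie.chevG2.group (ZMod 3)) = 4245696 := by
    have h1 : Nat.card ↥(Cfsg.Lie.chevG2.group (ZMod 3)) = 3 ^ 6 * (3 ^ 2 - 1) * (3 ^ 6 - 1) :=
      Cfsg.Agent.S1059.result (by rfl)
    rw [h1]
    norm_num
  have hfin : Finite ↥(Cfsg.Lie.chevG2.group (ZMod 3)) := Nat.finite_of_card_ne_zero (by rw [hc]; norm_num)
  have hk := killE_hex (Cfsg.Agent.Cit.HexG2.g2 (ZMod 3) two_ne) hc
  rintro A Γ h ⟨t, htA, ht2⟩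
  refine hk _ _ (h.map e.symm) ⟨e.symm t, ⟨t, htA, rfl⟩, ?_⟩
  rw [MulEquiv.orderOf_eq, ht2]

end Cfsg.Agent.H244.IFG
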